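import Cfsg.Agent.H186.OT.Emp
import Cfsg.Agent.H428.OT.Lau
import Cfsg.Agent.ChevalleyStructure.NPerm

/-!
# S2539, (K') (helper893)

* `lau_sq` : the Laurent trick for the window `2 D ≤ q - 1` (equality allowed): squares;
* `hL hD l c = ∏_{r ∈ l} h_r(c)`; `ex D l x = ∑_{r ∈ l} ⟨x, r^∨⟩`;
* `kprime` : `F` a least bad group, `S_F = ∅`, `g ∈ F - N(T)`, `g m g⁻¹ ∈ T`, `m ∉ Z(F)`, `m` centralises `hL l c` for all
  `c`, `|∑ ⟨x, r^∨⟩| ≤ w` for all roots `x`, `4 w ≤ q - 1` (or `2 s w < (s - 1)(q - 1)`): then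
  `∑_{r ∈ l} ⟨a, r^∨⟩ = 0` for all `a ∈ Ψ`;
* `kprime_one` : one root, `q ≥ 13`: `⟨a, r^∨⟩ = 0` for all `a ∈ Ψ`.
-/

set_option autoImplicit false
set_option linter.unusedSectionVars false

namespace Cfsg.Agent.H893.OT

open Subgroup Cfsg.Lie Cfsg.Agent.H412.OT Cfsg.Agent.H186.OT
open Cfsg.Agent.ChevalleyStructure Cfsg.Agent.ChevalleyStructure.Elts
open scoped Matrix MatrixGroups

universe u v w'

section Laurent

variable {K : Type u} [Field K] [Fintype K]

/-- window `2 D ≤ q - 1`: the stabiliser contains all squares -/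
theorem sq_mem_of_laurent {a : ℤ} {D : ℕ} {f : Kˣ → K} (hf : IsLaurent a D f) {c₀ : Kˣ} (h0 : f c₀ ≠ 0)
    (hD : 2 * D ≤ Fintype.card K - 1) (H : Subgroup Kˣ) (hH : ∀ c, f c ≠ 0 → c ∈ H) (c : Kˣ) : c ^ 2 ∈ H := by
  classical
  have hcard : Fintype.card Kˣ = Fintype.card K - 1 := Fintype.card_units K
  have hmul : Nat.card H * H.index = Fintype.card K - 1 := by
    rw [← hcard, ← Nat.card_eq_fintype_card]
    exact H.card_mul_index
  have h1 := hf.card_zeros h0
  have h2 : (Finset.univ.filter fun c : Kˣ => ¬ f c = 0).card ≤ Nat.card H := by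
    have hc2 : Nat.card H = (Finset.univ.filter fun c : Kˣ => c ∈ H).card := by
      rw [Nat.card_eq_fintype_card, Fintype.card_subtype]
    rw [hc2]
    refine Finset.card_le_card fun c hc => ?_
    exact Finset.mem_filter.2 ⟨Finset.mem_univ _, hH c (Finset.mem_filter.1 hc).2⟩
  have h3 : (Finset.univ.filter fun c : Kˣ => f c = 0).card + (Finset.univ.filter fun c : Kˣ => ¬ f c = 0).card
      = Fintype.card K - 1 := by
    rw [Finset.card_filter_add_card_filter_not, Finset.card_univ, hcard]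
  set n := Fintype.card K - 1 with hn
  have h4 : n ≤ D + Nat.card H := by omega
  have hpos : 0 < Nat.card H := Nat.card_pos
  have h5 : H.index ≤ 2 := by
    by_contra hcon
    have h6 : 3 ≤ H.index := by omega
    have h7 : Nat.card H * 3 ≤ n := by
      rw [← hmul]
      exact Nat.mul_le_mul_left _ h6
    omega
  have h6 : H.index = 1 ∨ H.index = 2 := by
    have : H.index ≠ 0 := Subgroup.index_ne_zero_of_finite
    omega
  rcases h6 with h6 | h6
  · rw [Subgroup.index_eq_one] at h6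
    rw [h6]
    exact Subgroup.mem_top _
  · exact Subgroup.sq_mem_of_index_two h6 c

/-- the Laurent trick, window `2 D ≤ q - 1` -/
theorem fix_sq_of_laurent {V : Type v} [AddCommGroup V] [Module K V] {a : ℤ} {D : ℕ}
    (hD : 2 * D ≤ Fintype.card K - 1) (lam : Kˣ →* Module.End K V)
    (hL : ∀ (φ : Module.Dual K V) (x : V), IsLaurent a D (fun c => φ (lam c x)))
    {ι : Type w'} (W : ι → Submodule K V) (hind : iSupIndep W) (hne : ∀ i, W i ≠ ⊥)
    (hperm : ∀ c i, ∃ j, (W i).map (lam c) = W j) (c : Kˣ) (i : ι) : (W i).map (lam (c ^ 2)) = W i := by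
  -- the stabiliser of `W i`
  let H : Subgroup Kˣ :=
    { carrier := {c | (W i).map (lam c) = W i}
      one_mem' := by
        change (W i).map (lam 1) = W i
        rw [map_one]
        exact Submodule.map_id _
      mul_mem' := by
        intro x y hx hy
        change (W i).map (lam (x * y)) = W i
        rw [map_mul, Module.End.mul_eq_comp, Submodule.map_comp, hy, hx]
      inv_mem' := by
        intro x hx
        change (W i).map (lam x⁻¹) = W i
        conv_lhs => rw [← (show (W i).map (lam x) = W i from hx)]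
        rw [← Submodule.map_comp, ← Module.End.mul_eq_comp, ← map_mul, inv_mul_cancel, map_one]
        exact Submodule.map_id _ }
  obtain ⟨x, hx, hx0⟩ := (Submodule.ne_bot_iff _).1 (hne i)
  have hxn : x ∉ ⨆ j, ⨆ _ : j ≠ i, W j := fun h => hx0 ((Submodule.disjoint_def.1 (hind i)) x hx h)
  obtain ⟨φ, hφx, hφ⟩ := Submodule.exists_le_ker_of_notMem hxn
  have hH : c ^ 2 ∈ H := by
    refine sq_mem_of_laurent (hL φ x) (c₀ := 1) ?_ hD H (fun c hc => ?_) c
    · simpa using hφx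
    · obtain ⟨j, hj⟩ := hperm c i
      by_cases hji : j = i
      · subst hji
        exact hj
      · exfalso
        apply hc
        have h1 : lam c x ∈ W j := hj ▸ Submodule.mem_map_of_mem hx
        have h2 : lam c x ∈ ⨆ j, ⨆ _ : j ≠ i, W j := (le_iSup₂_of_le (f := fun j (_ : j ≠ i) => W j) j hji le_rfl) h1
        exact LinearMap.mem_ker.1 (hφ h2)
  exact hH

variable {ι : Type v} [Fintype ι] [DecidableEq ι] {T : Subgroup (GL ι K)}

/-- **The Laurent trick for groups of diagonal matrices**, window `2 D ≤ q - 1`. -/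
theorem lau_sq (hT : H428.OT.IsDiagSub T) {a : ℤ} {D : ℕ} (hD : 2 * D ≤ Fintype.card K - 1)
    {e : ι → ℤ} (he : ∀ i, a ≤ e i ∧ e i ≤ a + D) (g : GL ι K)
    (hN : ∀ c, g * H428.OT.dco e c * g⁻¹ ∈ Subgroup.normalizer (T : Set (GL ι K))) (c : Kˣ) :
    ∀ t ∈ T, (g * H428.OT.dco e (c ^ 2) * g⁻¹) * t = t * (g * H428.OT.dco e (c ^ 2) * g⁻¹) := by
  apply H428.OT.comm_of_map_wsp hT
  intro χ
  exact fix_sq_of_laurent hD (H428.OT.lam g e) (H428.OT.isLaurent_lam g he)
    (fun χ : Set.range (H428.OT.wt T) => H428.OT.wsp T χ.1)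
    (H428.OT.iSupIndep_wsp hT) (H428.OT.wsp_ne_bot hT) (fun c χ => H428.OT.exists_map_wsp hT (hN c) χ) c χ

end Laurent

section Cochar

variable {D : ChevalleyDatum} {K : Type u} [Field K]

open scoped Classical in
/-- the exponents of `∏_{r ∈ l} h_r` on the adjoint module -/
def ex (D : ChevalleyDatum) (l : List ℕ) : D.Idx → ℤ :=
  Sum.elim (fun _ => 0) (fun s => (l.map fun r => pr D r s).sum)

/-- `∏_{r ∈ l} h_r(c)` -/
noncomputable def hL (hD : InList D) (l : List ℕ) (c : K) : GL D.Idx K := (l.map fun r => hG hD r c).prod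

theorem hL_mem (hD : InList D) {l : List ℕ} (hl : ∀ r ∈ l, r < D.nroots) {c : K} (hc : c ≠ 0) :
    hL hD l c ∈ D.diagonalSubgroup K := by
  refine Subgroup.list_prod_mem _ fun x hx => ?_
  obtain ⟨r, hr, rfl⟩ := List.mem_map.1 hx
  exact hG_mem hD (hl r hr) hc

theorem coe_hL (hD : InList D) {l : List ℕ} (hl : ∀ r ∈ l, r < D.nroots) {c : K} (hc : c ≠ 0) :
    (hL hD l c : Matrix D.Idx D.Idx K) = Matrix.diagonal (fun x => c ^ ex D l x) := by
  induction l with
  | nil =>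
    show ((1 : GL D.Idx K) : Matrix D.Idx D.Idx K) = _
    rw [Units.val_one, ← Matrix.diagonal_one]
    congr 1
    funext x
    rcases x with i | s
    · exact (zpow_zero c).symm
    · exact (zpow_zero c).symm
  | cons r l ih =>
    have h1 : hL hD (r :: l) c = hG hD r c * hL hD l c := by
      rw [hL, hL, List.map_cons, List.prod_cons]
    rw [h1, Units.val_mul, ih fun x hx => hl x (List.mem_cons_of_mem _ hx),
      coe_hG_diag hD (hl r List.mem_cons_self) hc, Matrix.diagonal_mul_diagonal]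
    congr 1
    funext x
    rcases x with i | s
    · simp only [ex, Sum.elim_inl, zpow_zero, mul_one]
    · simp only [ex, Sum.elim_inr, List.map_cons, List.sum_cons]
      rw [zpow_add₀ hc]

theorem dco_eq (hD : InList D) {l : List ℕ} (hl : ∀ r ∈ l, r < D.nroots) (c : Kˣ) :
    H428.OT.dco (ex D l) c = hL hD l (c : K) := by
  apply Units.ext
  rw [H428.OT.coe_dco, coe_hL hD hl c.ne_zero]
  congr 1
  funext x
  rw [Units.val_zpow_eq_zpow_val]

theorem chi_hL (hD : InList D) {l : List ℕ} (hl : ∀ r ∈ l, r < D.nroots) {c : K} (hc : c ≠ 0) {s : ℕ}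
    (hs : s < D.nroots) : chi D K (hL hD l c) s = c ^ (l.map fun r => pr D r s).sum := by
  rw [chi, dif_pos hs, coe_hL hD hl hc, Matrix.diagonal_apply_eq]
  rfl

theorem isDiag (hD : InList D) : H428.OT.IsDiagSub (D.diagonalSubgroup K) := fun _ ht => ⟨_, coe_tor hD ht⟩

/-- elements of `T` are determined by the values of the roots -/
theorem eq_of_chi (hD : InList D) {t t' : GL D.Idx K} (ht : t ∈ D.diagonalSubgroup K)
    (ht' : t' ∈ D.diagonalSubgroup K) (h : ∀ s < D.nroots, chi D K t s = chi D K t' s) : t = t' := by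
  apply Units.ext
  rw [coe_tor hD ht, coe_tor hD ht']
  congr 1
  funext x
  rcases x with i | s
  · rfl
  · rw [Sum.elim_inr, Sum.elim_inr]
    exact h s s.2

/-- `m` fixes `∏ h_r(c)` if the permutation afforded by `m` fixes `∑ r^∨` as a function on the roots -/
theorem comm_hL (hD : InList D) {m : GL D.Idx K}
    (hm : m ∈ normalizer (D.diagonalSubgroup K : Set (GL D.Idx K))) {w : ℕ → ℕ}
    (hsur : ∀ s < D.nroots, ∃ x < D.nroots, w x = s)
    (hchi : ∀ t ∈ D.diagonalSubgroup K, ∀ s < D.nroots, chi D K (m * t * m⁻¹) (w s) = chi D K t s)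
    {l : List ℕ} (hl : ∀ r ∈ l, r < D.nroots)
    (hlw : ∀ x < D.nroots, (l.map fun r => pr D r (w x)).sum = (l.map fun r => pr D r x).sum) {c : K} (hc : c ≠ 0) :
    m * hL hD l c = hL hD l c * m := by
  have h1 : m * hL hD l c * m⁻¹ = hL hD l c := by
    apply eq_of_chi hD ((mem_normalizer_iff.1 hm _).1 (hL_mem hD hl hc)) (hL_mem hD hl hc)
    intro s hs
    obtain ⟨x, hx, rfl⟩ := hsur s hs
    rw [hchi _ (hL_mem hD hl hc) x hx, chi_hL hD hl hc hx, chi_hL hD hl hc hs, hlw x hx]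
  rwa [mul_inv_eq_iff_eq_mul] at h1

variable [Fintype K]

theorem exists_gen (K : Type u) [Field K] [Fintype K] : ∃ γ : Kˣ, orderOf γ = Fintype.card K - 1 := by
  classical
  obtain ⟨γ, hγ⟩ := IsCyclic.exists_generator (α := Kˣ)
  refine ⟨γ, ?_⟩
  rw [orderOf_eq_card_of_forall_mem_zpowers hγ, Nat.card_units, Nat.card_eq_fintype_card]

theorem dvd_of_zpow {γ : Kˣ} (hγ : orderOf γ = Fintype.card K - 1) {a : ℤ} (h : ((γ : K)) ^ a = 1) :
    ((Fintype.card K - 1 : ℕ) : ℤ) ∣ a := by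
  rw [← hγ]
  apply orderOf_dvd_iff_zpow_eq_one.2
  apply Units.ext
  rw [Units.val_zpow_eq_zpow_val, h, Units.val_one]

variable {F : Subgroup (GL D.Idx K)}

/-- the conjugates `g h g⁻¹`, `h` a torus element centralised by `m`, normalise `T` -/
theorem conj_mem_norm (hD : InList D) (h : MinBad D K F) (he : SF D K F = ∅)
    {g m : GL D.Idx K} (hg : g ∈ F) (hgm : g * m * g⁻¹ ∈ D.diagonalSubgroup K) (hmZ : m ∉ Zf F)
    {x : GL D.Idx K} (hx : x ∈ F) (hxm : m * x = x * m) :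
    g * x * g⁻¹ ∈ normalizer (D.diagonalSubgroup K : Set (GL D.Idx K)) := by
  set C : Subgroup (GL D.Idx K) := F ⊓ centralizer {g * m * g⁻¹} with hC
  have hmem : ∀ x, x ∈ C ↔ x ∈ F ∧ x * (g * m * g⁻¹) = (g * m * g⁻¹) * x := fun x => by
    rw [hC, mem_inf, mem_centralizer_iff]
    constructor
    · exact fun h1 => ⟨h1.1, (h1.2 _ rfl).symm⟩
    · rintro ⟨h1, h2⟩
      refine ⟨h1, ?_⟩
      rintro y rfl
      exact h2.symm
  have hT : D.diagonalSubgroup K ≤ C := fun s hs => (hmem s).2 ⟨h.tor hs, tor_comm hD hs hgm⟩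
  have hlt : C < F := by
    refine lt_of_le_of_ne inf_le_left fun heq => hmZ ?_
    have hmF : m ∈ F := by
      have h1 := mul_mem (mul_mem (inv_mem hg) (h.tor hgm)) hg
      have h2 : g⁻¹ * (g * m * g⁻¹) * g = m := by group
      rwa [h2] at h1
    refine mem_Zf.2 ⟨hmF, fun x hx => ?_⟩
    have h1 : g * x * g⁻¹ ∈ C := by
      rw [heq]
      exact mul_mem (mul_mem hg hx) (inv_mem hg)
    have h2 := ((hmem _).1 h1).2
    have h3 : g * (x * m) * g⁻¹ = g * (m * x) * g⁻¹ := by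
      calc g * (x * m) * g⁻¹ = g * x * g⁻¹ * (g * m * g⁻¹) := by group
        _ = g * m * g⁻¹ * (g * x * g⁻¹) := h2
        _ = g * (m * x) * g⁻¹ := by group
    exact mul_left_cancel (mul_right_cancel h3)
  refine MinBad.le_norm h he hT hlt ((hmem _).2 ⟨mul_mem (mul_mem hg hx) (inv_mem hg), ?_⟩)
  calc g * x * g⁻¹ * (g * m * g⁻¹) = g * (x * m) * g⁻¹ := by group
    _ = g * (m * x) * g⁻¹ := by rw [hxm]
    _ = g * m * g⁻¹ * (g * x * g⁻¹) := by group

/-- **(K')** divisibility forms: general window, `(s, E)` form. -/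
theorem kprime_dvd (hD : InList D) (h : MinBad D K F) (he : SF D K F = ∅)
    (lt2 : ∀ g ∈ F, (∀ t ∈ D.diagonalSubgroup K, g * t * g⁻¹ ∈ normalizer (D.diagonalSubgroup K : Set (GL D.Idx K))) →
      g ∈ normalizer (D.diagonalSubgroup K : Set (GL D.Idx K)))
    (cent : ∀ x ∈ F, (∀ t ∈ D.diagonalSubgroup K, x * t = t * x) → x ∈ D.diagonalSubgroup K)
    {g m : GL D.Idx K} (hg : g ∈ F) (hgN : g ∉ normalizer (D.diagonalSubgroup K : Set (GL D.Idx K)))
    (hgm : g * m * g⁻¹ ∈ D.diagonalSubgroup K) (hmZ : m ∉ Zf F)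
    {l : List ℕ} (hl : ∀ r ∈ l, r < D.nroots) (hfix : ∀ c : K, c ≠ 0 → m * hL hD l c = hL hD l c * m)
    {a : ℤ} {E s : ℕ} (hs : ∀ d : ℕ, d ∣ Fintype.card K - 1 → d ≠ 1 → s ≤ d)
    (hE : s * E < (s - 1) * (Fintype.card K - 1)) (ha : a ≤ 0 ∧ 0 ≤ a + E)
    (hw : ∀ x < D.nroots, a ≤ (l.map fun r => pr D r x).sum ∧ (l.map fun r => pr D r x).sum ≤ a + E) :
    ∀ b ∈ Psi D K F, ((Fintype.card K - 1 : ℕ) : ℤ) ∣ (l.map fun r => pr D r b).sum := by
  intro b hb
  obtain ⟨γ, hγ⟩ := exists_gen K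
  have hF : ∀ c : Kˣ, hL hD l (c : K) ∈ F := fun c => h.tor (hL_mem hD hl c.ne_zero)
  have hlau : g * hL hD l (γ : K) * g⁻¹ ∈ D.diagonalSubgroup K := by
    apply cent _ (mul_mem (mul_mem hg (hF γ)) (inv_mem hg))
    have h1 := Cfsg.Agent.H428.OT.lau (T := D.diagonalSubgroup K) (isDiag hD) (a := a) (D := E) (s := s) hs hE
      (e := ex D l) (fun x => by
        rcases x with i | x
        · simp only [ex, Sum.elim_inl]; exact ha
        · simp only [ex, Sum.elim_inr]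
          exact hw x x.2) g
      (fun c => by
        rw [dco_eq hD hl]
        exact conj_mem_norm hD h he hg hgm hmZ (hF c) (hfix c c.ne_zero)) γ
    rwa [dco_eq hD hl] at h1
  have hZ : hL hD l (γ : K) ∈ Zf F := by
    by_contra h7
    exact hgN (ti0 hD h he lt2 (hL_mem hD hl γ.ne_zero) hg hlau h7)
  have h8 := hb.2 _ hZ
  rw [chi_hL hD hl γ.ne_zero hb.1] at h8
  exact dvd_of_zpow hγ h8

/-- **(K')** divisibility form: window `2 E ≤ q - 1`. -/
theorem kprime_dvd_two (hD : InList D) (h : MinBad D K F) (he : SF D K F = ∅)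
    (lt2 : ∀ g ∈ F, (∀ t ∈ D.diagonalSubgroup K, g * t * g⁻¹ ∈ normalizer (D.diagonalSubgroup K : Set (GL D.Idx K))) →
      g ∈ normalizer (D.diagonalSubgroup K : Set (GL D.Idx K)))
    (cent : ∀ x ∈ F, (∀ t ∈ D.diagonalSubgroup K, x * t = t * x) → x ∈ D.diagonalSubgroup K)
    {g m : GL D.Idx K} (hg : g ∈ F) (hgN : g ∉ normalizer (D.diagonalSubgroup K : Set (GL D.Idx K)))
    (hgm : g * m * g⁻¹ ∈ D.diagonalSubgroup K) (hmZ : m ∉ Zf F)
    {l : List ℕ} (hl : ∀ r ∈ l, r < D.nroots) (hfix : ∀ c : K, c ≠ 0 → m * hL hD l c = hL hD l c * m)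
    {a : ℤ} {E : ℕ} (hE : 2 * E ≤ Fintype.card K - 1) (ha : a ≤ 0 ∧ 0 ≤ a + E)
    (hw : ∀ x < D.nroots, a ≤ (l.map fun r => pr D r x).sum ∧ (l.map fun r => pr D r x).sum ≤ a + E) :
    ∀ b ∈ Psi D K F, ((Fintype.card K - 1 : ℕ) : ℤ) ∣ 2 * (l.map fun r => pr D r b).sum := by
  intro b hb
  obtain ⟨γ, hγ⟩ := exists_gen K
  have hF : ∀ c : Kˣ, hL hD l (c : K) ∈ F := fun c => h.tor (hL_mem hD hl c.ne_zero)
  have hlau : g * hL hD l ((γ ^ 2 : Kˣ) : K) * g⁻¹ ∈ D.diagonalSubgroup K := by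
    apply cent _ (mul_mem (mul_mem hg (hF _)) (inv_mem hg))
    have h1 := lau_sq (T := D.diagonalSubgroup K) (isDiag hD) (a := a) (D := E) hE
      (e := ex D l) (fun x => by
        rcases x with i | x
        · simp only [ex, Sum.elim_inl]; exact ha
        · simp only [ex, Sum.elim_inr]
          exact hw x x.2) g
      (fun c => by
        rw [dco_eq hD hl]
        exact conj_mem_norm hD h he hg hgm hmZ (hF c) (hfix c c.ne_zero)) γ
    rwa [dco_eq hD hl] at h1
  have hZ : hL hD l ((γ ^ 2 : Kˣ) : K) ∈ Zf F := by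
    by_contra h7
    exact hgN (ti0 hD h he lt2 (hL_mem hD hl (γ ^ 2).ne_zero) hg hlau h7)
  have h8 := hb.2 _ hZ
  rw [chi_hL hD hl (γ ^ 2).ne_zero hb.1, Units.val_pow_eq_pow_val, ← zpow_natCast, ← zpow_mul] at h8
  exact dvd_of_zpow hγ h8

/-- **(K')** : symmetric window, `4 w ≤ q - 1` or the `(s, E)` form. -/
theorem kprime (hD : InList D) (h : MinBad D K F) (he : SF D K F = ∅)
    (lt2 : ∀ g ∈ F, (∀ t ∈ D.diagonalSubgroup K, g * t * g⁻¹ ∈ normalizer (D.diagonalSubgroup K : Set (GL D.Idx K))) →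
      g ∈ normalizer (D.diagonalSubgroup K : Set (GL D.Idx K)))
    (cent : ∀ x ∈ F, (∀ t ∈ D.diagonalSubgroup K, x * t = t * x) → x ∈ D.diagonalSubgroup K)
    {g m : GL D.Idx K} (hg : g ∈ F) (hgN : g ∉ normalizer (D.diagonalSubgroup K : Set (GL D.Idx K)))
    (hgm : g * m * g⁻¹ ∈ D.diagonalSubgroup K) (hmZ : m ∉ Zf F)
    {l : List ℕ} (hl : ∀ r ∈ l, r < D.nroots) (hfix : ∀ c : K, c ≠ 0 → m * hL hD l c = hL hD l c * m)
    {w : ℕ} (hq : 4 * w ≤ Fintype.card K - 1 ∨ ∃ s : ℕ, (∀ d : ℕ, d ∣ Fintype.card K - 1 → d ≠ 1 → s ≤ d) ∧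
      s * (2 * w) < (s - 1) * (Fintype.card K - 1))
    (hw : ∀ x < D.nroots, |(l.map fun r => pr D r x).sum| ≤ w) :
    ∀ b ∈ Psi D K F, (l.map fun r => pr D r b).sum = 0 := by
  intro b hb
  have hb0 := abs_le.1 (hw b hb.1)
  have hwin : ∀ x < D.nroots, -(w : ℤ) ≤ (l.map fun r => pr D r x).sum ∧
      (l.map fun r => pr D r x).sum ≤ -(w : ℤ) + ((2 * w : ℕ) : ℤ) := by
    intro x hx
    have h1 := abs_le.1 (hw x hx)
    refine ⟨h1.1, ?_⟩
    push_cast
    linarith [h1.2]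
  have ha : -(w : ℤ) ≤ 0 ∧ (0 : ℤ) ≤ -(w : ℤ) + ((2 * w : ℕ) : ℤ) := by
    push_cast
    constructor <;> omega
  have hcard : 1 < Fintype.card K := Fintype.one_lt_card
  rcases hq with hq | ⟨s, hs, hq⟩
  · have h1 := kprime_dvd_two hD h he lt2 cent hg hgN hgm hmZ hl hfix (a := -(w : ℤ)) (E := 2 * w) (by omega) ha
      hwin b hb
    have h2 : 2 * (l.map fun r => pr D r b).sum = 0 := by
      apply Int.eq_zero_of_abs_lt_dvd h1
      rw [abs_lt]
      have h4 : (4 : ℤ) * w ≤ ((Fintype.card K - 1 : ℕ) : ℤ) := by exact_mod_cast hq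
      have h5 : (1 : ℤ) ≤ ((Fintype.card K - 1 : ℕ) : ℤ) := by
        have : 1 ≤ Fintype.card K - 1 := by omega
        exact_mod_cast this
      constructor <;> omega
    omega
  · have h1 := kprime_dvd hD h he lt2 cent hg hgN hgm hmZ hl hfix (a := -(w : ℤ)) (E := 2 * w) hs hq ha
      hwin b hb
    apply Int.eq_zero_of_abs_lt_dvd h1
    have h6 : w < Fintype.card K - 1 := by
      by_contra hcon
      have h7 : Fintype.card K - 1 ≤ w := by omega
      have h8 : (s - 1) * (Fintype.card K - 1) ≤ s * (2 * w) :=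
        Nat.mul_le_mul (Nat.sub_le _ _) (h7.trans (by omega))
      omega
    rw [abs_lt]
    constructor <;> omega

/-- **(K')** for one root, `q ≥ 13`. -/
theorem kprime_one (hD : InList D) (hq : 13 ≤ Fintype.card K) (h : MinBad D K F) (he : SF D K F = ∅)
    (lt2 : ∀ g ∈ F, (∀ t ∈ D.diagonalSubgroup K, g * t * g⁻¹ ∈ normalizer (D.diagonalSubgroup K : Set (GL D.Idx K))) →
      g ∈ normalizer (D.diagonalSubgroup K : Set (GL D.Idx K)))
    (cent : ∀ x ∈ F, (∀ t ∈ D.diagonalSubgroup K, x * t = t * x) → x ∈ D.diagonalSubgroup K)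
    {g m : GL D.Idx K} (hg : g ∈ F) (hgN : g ∉ normalizer (D.diagonalSubgroup K : Set (GL D.Idx K)))
    (hgm : g * m * g⁻¹ ∈ D.diagonalSubgroup K) (hmZ : m ∉ Zf F)
    {r : ℕ} (hr : r < D.nroots) (hfix : ∀ c : K, c ≠ 0 → m * hG hD r c = hG hD r c * m)
    (hw : ∀ x < D.nroots, |pr D r x| ≤ 3) : ∀ b ∈ Psi D K F, pr D r b = 0 := by
  intro b hb
  have h1 := kprime hD h he lt2 cent hg hgN hgm hmZ (l := [r]) (w := 3) (by simpa using hr)
    (by
      intro c hc
      simpa only [hL, List.map_cons, List.map_nil, List.prod_cons, List.prod_nil, mul_one] using hfix c hc)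
    (Or.inl (by omega))
    (by
      intro x hx
      simpa only [List.map_cons, List.map_nil, List.sum_cons, List.sum_nil, add_zero, Nat.cast_ofNat] using hw x hx) b hb
  simpa only [List.map_cons, List.map_nil, List.sum_cons, List.sum_nil, add_zero] using h1

end Cochar

end Cfsg.Agent.H893.OT
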